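import Cfsg.Agent.H675.P4.Basic

/-!
# S5210: `StQa` from `StQ1` and `StGrp` (helper675)

The action on `Q/Z` for `q > 3`: the fixed points of the opposite root group `R⁻` on `Q/Z` are `{(r, 0)}`, its elements are
`(r, b) ↦ (r - c⁻¹ b, b)`.
-/

set_option autoImplicit false

namespace Cfsg.Agent.H675.P4

open Cfsg Cfsg.FusionSystem Cfsg.Agent.H776.P4
open Cfsg.Agent.H756.PU (HypK Ess Inv Com NormAut TIAut AF)

universe u

variable {K : Type u} [Field K] [StarRing K] {p n : ℕ}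

/-- `Aut_S(Q)` -/
local notation "AS" => autInducedBy (⊤ : Subgroup (PG K)) (PQ K)

/-- `n` exchanges `Aut_S(Q)` and `R⁻` -/
structure Swap (Rm : Subgroup (MulAut (PQ K))) (w : MulAut (PQ K)) : Prop where
  h1 : ∀ z, z ∈ Rm ↔ w * z * w⁻¹ ∈ AS
  h2 : ∀ z, z ∈ AS ↔ w * z * w⁻¹ ∈ Rm

/-- fixed points of `R⁻` on `Q/Z` -/
def Cm (Rm : Subgroup (MulAut (PQ K))) (e : PQ K) : Prop :=
  ∀ y ∈ Rm, ((y e : PQ K) : PG K).r = (e : PG K).r ∧ ((y e : PQ K) : PG K).b = (e : PG K).b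

theorem cp_iff {e : PQ K} : (e : PG K).r = 0 ↔
    ∀ x ∈ AS, ((x e : PQ K) : PG K).r = (e : PG K).r ∧ ((x e : PQ K) : PG K).b = (e : PG K).b := by
  constructor
  · intro he x hx
    rw [aut_eq] at hx
    obtain ⟨g, rfl⟩ := hx
    rw [cjQ_r, cjQ_b, he, mul_zero, sub_zero]
    exact ⟨rfl, rfl⟩
  · intro H
    have h1 := (H _ (cjQ_mem (⟨0, 0, 0, 1, star_zero _, star_one _⟩ : PG K))).2
    rw [cjQ_b] at h1
    linear_combination -h1

section swap

variable {Rm : Subgroup (MulAut (PQ K))} {w : MulAut (PQ K)}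

theorem Swap.cm (h : HypK K p n) (hw : Swap Rm w) {e : PQ K} : Cm Rm e ↔ ((w e : PQ K) : PG K).r = 0 := by
  rw [cp_iff]
  constructor
  · intro he z hz
    have h1 : w⁻¹ * z * w ∈ Rm := by
      rw [hw.h1]
      have e1 : w * (w⁻¹ * z * w) * w⁻¹ = z := by group
      rwa [e1]
    have h2 := eqv_map h w (he _ h1)
    rw [MulAut.mul_apply, MulAut.mul_apply, MulAut.apply_inv_self] at h2
    exact h2
  · intro he y hy
    have h1 := he _ ((hw.h1 y).1 hy)
    rw [MulAut.mul_apply, MulAut.mul_apply, MulAut.inv_apply_self] at h1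
    have h2 := eqv_map h w⁻¹ h1
    rwa [MulAut.inv_apply_self, MulAut.inv_apply_self] at h2

theorem Swap.cp (h : HypK K p n) (hw : Swap Rm w) {e : PQ K} : (e : PG K).r = 0 ↔ Cm Rm (w e) := by
  rw [cp_iff]
  constructor
  · intro he y hy
    have h1 : w⁻¹ * y * w ∈ AS := by
      rw [hw.h2]
      have e1 : w * (w⁻¹ * y * w) * w⁻¹ = y := by group
      rwa [e1]
    have h2 := eqv_map h w (he _ h1)
    rw [MulAut.mul_apply, MulAut.mul_apply, MulAut.apply_inv_self] at h2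
    exact h2
  · intro he x hx
    have h1 := he _ ((hw.h2 x).1 hx)
    rw [MulAut.mul_apply, MulAut.mul_apply, MulAut.inv_apply_self] at h1
    have h2 := eqv_map h w⁻¹ h1
    rwa [MulAut.inv_apply_self, MulAut.inv_apply_self] at h2

end swap

/-- `Cm` is closed under products and inverses -/
theorem Cm.mul {Rm : Subgroup (MulAut (PQ K))} {e f : PQ K} (he : Cm Rm e) (hf : Cm Rm f) : Cm Rm (e * f) := by
  intro y hy
  rw [map_mul, q_r, q_b, q_r, q_b, (he y hy).1, (he y hy).2, (hf y hy).1, (hf y hy).2]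
  exact ⟨rfl, rfl⟩

theorem Cm.inv {Rm : Subgroup (MulAut (PQ K))} {e : PQ K} (he : Cm Rm e) : Cm Rm e⁻¹ := by
  intro y hy
  rw [map_inv, qi_r, qi_b, qi_r, qi_b, (he y hy).1, (he y hy).2]
  exact ⟨rfl, rfl⟩

theorem Cm.of_eqv (h : HypK K p n) {Rm : Subgroup (MulAut (PQ K))} {e f : PQ K} (he : Cm Rm e)
    (H : (f : PG K).r = (e : PG K).r ∧ (f : PG K).b = (e : PG K).b) : Cm Rm f := by
  intro y hy
  have h1 := eqv_map h y H
  rw [h1.1, h1.2, H.1, H.2]
  exact he y hy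

section main

variable {Γ : Subgroup (MulAut (PQ K))} {D : Subgroup (MulAut (PG K))} {Rm : Subgroup (MulAut (PQ K))}

/-- the fixed points of `R⁻` are the elements with `b = 0` -/
theorem cm_iff (h : HypK K p n) (h3 : 3 < p ^ n) (hG : StGrp.{u})
    (hT : HasTorP D (fun t => t ^ 2) (fun t => (t * star t)⁻¹))
    (hD : ∀ d ∈ D, ∀ δ : MulAut (PQ K), IsRP d δ → ∀ y ∈ Rm, δ * y * δ⁻¹ ∈ Rm)
    {w : MulAut (PQ K)} (hw : Swap Rm w)
    (hfix : ∀ v : PQ K, (v : PG K) ∈ PY K → (∀ y ∈ Rm, ((y v : PQ K) : PG K) * (v : PG K)⁻¹ ∈ PZ K) → (v : PG K) ∈ PZ K)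
    {e : PQ K} : Cm Rm e ↔ (e : PG K).b = 0 := by
  -- (i)
  have hi : ∀ e : PQ K, (e : PG K).r = 0 → Cm Rm e → (e : PG K).b = 0 := by
    intro e he hc
    have h1 := hfix e ⟨he, e.2⟩ (fun y hy => by
      have h2 : ((y e * e⁻¹ : PQ K) : PG K).r = 0 ∧ ((y e * e⁻¹ : PQ K) : PG K).b = 0 := by
        rw [q_r, q_b, qi_r, qi_b, (hc y hy).1, (hc y hy).2]
        exact ⟨add_neg_cancel _, add_neg_cancel _⟩
      exact ⟨h2.1, h2.2, (y e * e⁻¹ : PQ K).2⟩)
    exact h1.2.1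
  -- (ii)
  have hii : ∀ r : K, ∃ e : PQ K, Cm Rm e ∧ (e : PG K).r = r := by
    have hfin := h.fin
    let f : K →+ K :=
      { toFun := fun b => ((w (mk 0 b) : PQ K) : PG K).r
        map_zero' := by
          have h1 : (mk 0 0 : PQ K) = 1 := rfl
          change ((w (mk 0 0) : PQ K) : PG K).r = 0
          rw [h1, map_one]
          rfl
        map_add' := by
          intro x y
          have h1 : (mk 0 (x + y) : PQ K) = mk 0 x * mk 0 y := by
            apply ext_q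
            · rw [q_r]; simp
            · rw [q_a]; simp [mk]
            · rw [q_b]; simp
          change ((w (mk 0 (x + y)) : PQ K) : PG K).r = _
          rw [h1, map_mul, q_r] }
    have hf : Function.Injective f := by
      rw [injective_iff_map_eq_zero]
      intro b hb
      have hb' : ((w (mk 0 b) : PQ K) : PG K).r = 0 := hb
      have h1 : Cm Rm (w (mk 0 b)) := (hw.cp h).1 rfl
      have h2 := hi _ hb' h1
      have h4 : InZ (w (mk 0 b)) := ⟨hb', h2⟩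
      have h5 := inZ_map h w⁻¹ h4
      rw [MulAut.inv_apply_self] at h5
      exact h5.2
    have hs : Function.Surjective f := Finite.injective_iff_surjective.1 hf
    intro r
    obtain ⟨b, hb⟩ := hs r
    exact ⟨w (mk 0 b), (hw.cp h).1 rfl, hb⟩
  -- (iv)
  obtain ⟨t, ht0, hts, ht2⟩ := exists_sq h h3
  obtain ⟨-, -, htor, -, -, -, -, -⟩ := hG h
  have hl0 : (t * star t)⁻¹ ≠ 0 := inv_ne_zero (mul_ne_zero ht0 (star_ne_zero.2 ht0))
  obtain ⟨α, hα⟩ := htor (t ^ 2) ((t * star t)⁻¹) (RingEquiv.refl K) (pow_ne_zero 2 ht0) hl0 (by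
    rw [star_inv₀, star_mul', star_star, mul_comm])
  have hαD : α ∈ D := hT t ht0 α hα
  obtain ⟨δ, hδ⟩ := exists_rst hα
  have hδD : IsRP α⁻¹ δ⁻¹ := by
    intro e
    apply α.injective
    have h1 := hδ (δ⁻¹ e)
    rw [MulAut.apply_inv_self] at h1
    rw [← h1]
    exact (MulAut.apply_inv_self _ _ _).symm
  have hinv : ∀ e, Cm Rm e → Cm Rm (δ e) := by
    intro e he y hy
    have h1 := hD _ (D.inv_mem hαD) _ hδD y hy
    rw [inv_inv] at h1
    have h2 := eqv_map h δ (he _ h1)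
    rw [MulAut.mul_apply, MulAut.mul_apply, MulAut.apply_inv_self] at h2
    exact h2
  have hst : t * star t = t ^ 2 := by rw [hts]; ring
  have hiv : ∀ r : K, ∃ e : PQ K, Cm Rm e ∧ (e : PG K).r = r ∧ (e : PG K).b = 0 := by
    intro r
    have hne : t ^ 2 - 1 ≠ 0 := sub_ne_zero.2 ht2
    obtain ⟨e, he, her⟩ := hii ((t ^ 2 - 1)⁻¹ * r)
    refine ⟨δ e * e⁻¹, (hinv e he).mul he.inv, ?_, ?_⟩
    · rw [q_r, qi_r, hδ e, hα.r, her]
      change t ^ 2 * ((t ^ 2 - 1)⁻¹ * r) + - ((t ^ 2 - 1)⁻¹ * r) = r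
      field_simp
      ring
    · rw [q_b, qi_b, hδ e, hα.b]
      change t ^ 2 * (t * star t)⁻¹ * (e : PG K).b + - (e : PG K).b = 0
      rw [hst, mul_inv_cancel₀ (pow_ne_zero 2 ht0)]
      ring
  constructor
  · intro he
    obtain ⟨f, hf, hfr, hfb⟩ := hiv (e : PG K).r
    have h1 := hi (e * f⁻¹) (by rw [q_r, qi_r, hfr]; ring) (he.mul hf.inv)
    rw [q_b, qi_b, hfb] at h1
    linear_combination h1
  · intro he
    obtain ⟨f, hf, hfr, hfb⟩ := hiv (e : PG K).r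
    exact hf.of_eqv h ⟨hfr.symm, he.trans hfb.symm⟩

/-- the elements `n_c` -/
theorem exists_n (h : HypK K p n)
    (hRm : Rm ≤ Γ) (hAS : AS ≤ Γ)
    (hsw : ∀ x ∈ AS, x ∉ Inn (PQ K) → ∃ y ∈ Rm,
        (∀ z, z ∈ Rm ↔ (x * y * x) * z * (x * y * x)⁻¹ ∈ AS) ∧
        (∀ z, z ∈ AS ↔ (x * y * x) * z * (x * y * x)⁻¹ ∈ Rm))
    (hcm : ∀ e : PQ K, Cm Rm e ↔ (e : PG K).b = 0) {c : K} (hc : c ≠ 0) (hcs : star c = c) :
    ∃ w ∈ Γ, Swap Rm w ∧ ∀ e : PQ K, ((w e : PQ K) : PG K).r = - c⁻¹ * (e : PG K).b ∧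
      ((w e : PQ K) : PG K).b = c * (e : PG K).r := by
  have hxI : cjQ (⟨0, 0, 0, -c, star_zero _, by rw [star_neg, hcs]⟩ : PG K) ∉ Inn (PQ K) := by
    rintro ⟨y, hy⟩
    have h1 := congrArg (fun α : MulAut (PQ K) => ((α (mk 1 0) : PQ K) : PG K).b) hy
    simp only [cjQ_b] at h1
    change ((y * mk 1 0 * y⁻¹ : PQ K) : PG K).b = _ at h1
    rw [q_b, q_b, qi_b] at h1
    simp only [mk_b, mk_r] at h1
    apply hc
    linear_combination -h1
  obtain ⟨y, hy, hw1, hw2⟩ := hsw _ (cjQ_mem _) hxI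
  set x : MulAut (PQ K) := cjQ (⟨0, 0, 0, -c, star_zero _, by rw [star_neg, hcs]⟩ : PG K) with hx
  have hxr : ∀ e : PQ K, ((x e : PQ K) : PG K).r = (e : PG K).r := fun e => cjQ_r _ e
  have hxb : ∀ e : PQ K, ((x e : PQ K) : PG K).b = (e : PG K).b + c * (e : PG K).r := by
    intro e
    rw [hx, cjQ_b]
    ring
  have hxm : x ∈ Γ := hAS (cjQ_mem _)
  have hw : Swap Rm (x * y * x) := ⟨hw1, hw2⟩
  -- `y` preserves `b`
  have hyb : ∀ e : PQ K, ((y e : PQ K) : PG K).b = (e : PG K).b := by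
    intro e
    have h1 := (hw.h1 y).1 hy
    have h2 : (((x * y * x) (y e * e⁻¹) : PQ K) : PG K).r = 0 := by
      rw [map_mul, map_inv]
      have h3 : (x * y * x) (y e) = ((x * y * x) * y * (x * y * x)⁻¹) ((x * y * x) e) := by
        have e1 : ∀ (u v : MulAut (PQ K)) (f : PQ K), u (v f) = (u * v * u⁻¹) (u f) := by
          intro u v f
          rw [← MulAut.mul_apply, ← MulAut.mul_apply]
          congr 1
          group
        exact e1 (x * y * x) y e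
      rw [h3, q_r, qi_r]
      have h4 : ∀ z ∈ AS, ∀ f : PQ K, ((z f : PQ K) : PG K).r = (f : PG K).r := by
        intro z hz f
        rw [aut_eq] at hz
        obtain ⟨g, rfl⟩ := hz
        exact cjQ_r g f
      rw [h4 _ h1]
      ring
    have h5 := (hcm _).1 ((hw.cm h).2 h2)
    rw [q_b, qi_b] at h5
    linear_combination h5
  -- `y` on `r = 0`
  have hyr0 : ∀ e : PQ K, (e : PG K).r = 0 → ((y e : PQ K) : PG K).r = - c⁻¹ * (e : PG K).b := by
    intro e he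
    have h1 := (hcm _).1 ((hw.cp h).1 he)
    rw [MulAut.mul_apply, MulAut.mul_apply, hxb, hyb, hxb, he] at h1
    have h2 : ((y (x e) : PQ K) : PG K).r = ((y e : PQ K) : PG K).r := by
      refine (eqv_map h y ⟨hxr e, ?_⟩).1
      rw [hxb, he]
      ring
    rw [h2] at h1
    field_simp
    linear_combination h1
  have hyr1 : ∀ e : PQ K, (e : PG K).b = 0 → ((y e : PQ K) : PG K).r = (e : PG K).r :=
    fun e he => ((hcm e).2 he y hy).1
  have hyr : ∀ e : PQ K, ((y e : PQ K) : PG K).r = (e : PG K).r - c⁻¹ * (e : PG K).b := by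
    intro e
    have h1 : ((y e : PQ K) : PG K).r = ((y (mk (e : PG K).r 0 * mk 0 (e : PG K).b) : PQ K) : PG K).r := by
      refine (eqv_map h y ⟨?_, ?_⟩).1
      · rw [q_r]; simp
      · rw [q_b]; simp
    rw [h1, map_mul, q_r, hyr1 _ rfl, hyr0 _ rfl]
    simp only [mk_r, mk_b]
    ring
  refine ⟨x * y * x, Γ.mul_mem (Γ.mul_mem hxm (hRm hy)) hxm, hw, fun e => ⟨?_, ?_⟩⟩
  · rw [MulAut.mul_apply, MulAut.mul_apply, hxr, hyr, hxr, hxb]
    field_simp
    ring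
  · rw [MulAut.mul_apply, MulAut.mul_apply, hxb, hyr, hyb, hxr, hxb]
    field_simp
    ring

end main

/-- **StQa** -/
theorem stQa (hQ1 : StQ1.{u}) (hG : StGrp.{u}) : StQa.{u} := by
  intro K _ _ p n h h3 Γ D hP hT
  obtain ⟨Rm, hRm, hInn, hD, hsw, hgen, hfix⟩ := hQ1 h h3 Γ D hP hT
  have hcn := CZ_normal h
  have hg := hG h
  obtain ⟨-, -, htor, hTP, -, -, -, hWQ⟩ := hg
  -- the fixed points
  have hcm : ∀ e : PQ K, Cm Rm e ↔ (e : PG K).b = 0 := by
    have hxI : cjQ (⟨0, 0, 0, -1, star_zero _, by rw [star_neg, star_one]⟩ : PG K) ∉ Inn (PQ K) := by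
      rintro ⟨y, hy⟩
      have h1 := congrArg (fun α : MulAut (PQ K) => ((α (mk 1 0) : PQ K) : PG K).b) hy
      simp only [cjQ_b] at h1
      change ((y * mk 1 0 * y⁻¹ : PQ K) : PG K).b = _ at h1
      rw [q_b, q_b, qi_b] at h1
      simp only [mk_b, mk_r] at h1
      apply one_ne_zero (α := K)
      linear_combination -h1
    obtain ⟨y, hy, hw1, hw2⟩ := hsw _ (cjQ_mem _) hxI
    intro e
    exact cm_iff h h3 hG hT hD ⟨hw1, hw2⟩ hfix
  have hn := fun {c : K} (hc : c ≠ 0) (hcs : star c = c) => exists_n h hRm hP.indu hsw hcm hc hcs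
  -- the Weyl elements
  obtain ⟨w, hwΓ, hws, hwe⟩ := hn (c := -1) (neg_ne_zero.2 one_ne_zero) (by rw [star_neg, star_one])
  have hW : ∀ γ : MulAut (PQ K), IsWQ γ → ∀ e : PQ K, ((γ e : PQ K) : PG K).r = ((w e : PQ K) : PG K).r ∧
      ((γ e : PQ K) : PG K).b = ((w e : PQ K) : PG K).b := by
    intro γ hγ e
    rw [hγ.r, hγ.b, (hwe e).1, (hwe e).2]
    constructor
    · rw [inv_neg, inv_one]; ring
    · ring
  have hL1 : LamQ K ≤ Γ ⊔ CZ K := by
    refine sup_le (hP.indu.trans le_sup_left) ?_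
    rw [Subgroup.closure_le]
    intro γ hγ
    exact (mem_sup_CZ h).2 ⟨w, hwΓ, hW γ hγ⟩
  obtain ⟨W, hWW⟩ := hWQ
  have hWL : W ∈ LamQ K := Subgroup.mem_sup_right (Subgroup.subset_closure hWW)
  have hwL : w ∈ LamQ K ⊔ CZ K := (mem_sup_CZ h).2 ⟨W, hWL, fun e => ⟨(hW W hWW e).1.symm, (hW W hWW e).2.symm⟩⟩
  have hRL : Rm ≤ LamQ K ⊔ CZ K := by
    intro y hy
    have h1 := (hws.h1 y).1 hy
    have h2 : w * y * w⁻¹ ∈ LamQ K ⊔ CZ K := Subgroup.mem_sup_left (Subgroup.mem_sup_left h1)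
    have e1 : y = w⁻¹ * (w * y * w⁻¹) * w := by group
    rw [e1]
    exact mul_mem (mul_mem (inv_mem hwL) h2) hwL
  refine ⟨?_, ?_, ?_⟩
  · -- HasTorK
    intro t ht0 hts α hα
    obtain ⟨w1, hw1Γ, hw1s, hw1e⟩ := hn (c := 1) one_ne_zero (star_one _)
    obtain ⟨wt, hwtΓ, hwts, hwte⟩ := hn (c := t) ht0 hts
    have hinv : ∀ e : PQ K, ((wt⁻¹ e : PQ K) : PG K).r = t⁻¹ * (e : PG K).b ∧
        ((wt⁻¹ e : PQ K) : PG K).b = - t * (e : PG K).r := by
      intro e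
      have h1 := hwte (wt⁻¹ e)
      rw [MulAut.apply_inv_self] at h1
      obtain ⟨h1, h2⟩ := h1
      constructor
      · rw [h2]; field_simp
      · rw [h1]; field_simp
    have hh : ∀ e : PQ K, (((w1 * wt⁻¹) e : PQ K) : PG K).r = t * (e : PG K).r ∧
        (((w1 * wt⁻¹) e : PQ K) : PG K).b = t⁻¹ * (e : PG K).b := by
      intro e
      rw [MulAut.mul_apply, (hw1e _).1, (hw1e _).2, (hinv e).1, (hinv e).2, inv_one]
      constructor <;> ring
    have hN : NormAut (⊤ : Subgroup (PG K)) (w1 * wt⁻¹) := by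
      intro z hz
      have h1 : wt⁻¹ * z * wt ∈ Rm := by
        rw [hwts.h1]
        have e1 : wt * (wt⁻¹ * z * wt) * wt⁻¹ = z := by group
        rwa [e1]
      have h2 := (hw1s.h1 _).1 h1
      have e2 : w1 * (wt⁻¹ * z * wt) * w1⁻¹ = w1 * wt⁻¹ * z * (w1 * wt⁻¹)⁻¹ := by group
      rwa [e2] at h2
    obtain ⟨x, d, hd, hxd⟩ := hP.norm _ (Γ.mul_mem hw1Γ (Γ.inv_mem hwtΓ)) hN
    obtain ⟨s, l, τ, hsl⟩ := hTP d (hP.D_le hd)
    have h1 : ∀ e : PQ K, t * (e : PG K).r = s * τ (e : PG K).r := by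
      intro e
      have h2 := congrArg PG.r (hxd e)
      rw [(hh e).1, PG.mul_r, PG.mul_r, PG.inv_r, hsl.r] at h2
      rw [h2]; ring
    have hs : s = t := by
      have h2 := h1 (mk 1 0)
      rw [mk_r, map_one] at h2
      linear_combination -h2
    have hτ : ∀ r : K, τ r = r := by
      intro r
      have h2 := h1 (mk r 0)
      rw [mk_r, hs] at h2
      exact (mul_left_cancel₀ ht0 h2).symm
    have hl : l = t⁻¹ * t⁻¹ := by
      have h2 := congrArg PG.b (hxd (mk 0 1))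
      have h4 : (d ((mk 0 1 : PQ K) : PG K)).c = 0 := by
        rw [hsl.c]
        change l * τ 0 = 0
        rw [map_zero, mul_zero]
      have h5 : (d ((mk 0 1 : PQ K) : PG K)).r = 0 := by
        rw [hsl.r]
        change s * τ 0 = 0
        rw [map_zero, mul_zero]
      rw [(hh _).2, mk_b, PG.mul_b, PG.mul_b, PG.mul_r, PG.inv_b, PG.inv_c, h4, h5, hsl.b, mk_b, map_one, hs] at h2
      have h6 : t⁻¹ = t * l := by linear_combination h2
      have h7 : l = t⁻¹ * (t * l) := by field_simp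
      rw [← h6] at h7
      exact h7
    have hαd : α = d := by
      ext1 g
      refine PG.ext ?_ ?_ ?_ ?_
      · rw [hα.r, hsl.r, hs, hτ]; rfl
      · rw [hα.a, hsl.a, hs, hτ, hl]; rfl
      · rw [hα.b, hsl.b, hs, hτ, hl]; rfl
      · rw [hα.c, hsl.c, hτ, hl]; rfl
    rw [hαd]
    exact hd
  · intro l hl
    obtain ⟨γ, hγ, H⟩ := (mem_sup_CZ h).1 (hL1 hl)
    exact ⟨γ, hγ, fun e => ⟨(H e).1.symm, (H e).2.symm⟩⟩
  · intro γ hγ
    obtain ⟨g, hg, hN⟩ := hgen γ hγ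
    have hgΓ : g ∈ Γ := (sup_le hP.indu hRm) hg
    obtain ⟨x, d, hd, hxd⟩ := hP.norm _ (Γ.mul_mem (Γ.inv_mem hgΓ) hγ) hN
    obtain ⟨s, l, τ, hsl⟩ := hTP d (hP.D_le hd)
    obtain ⟨δ, hδ⟩ := exists_rst hsl
    have h1 : g⁻¹ * γ = cjQ x * δ := by
      ext1 e
      apply Subtype.ext
      rw [hxd e, MulAut.mul_apply, cjQ_apply, hδ e]
    have h2 : g * cjQ x ∈ LamQ K ⊔ CZ K := by
      refine mul_mem ?_ (Subgroup.mem_sup_left (Subgroup.mem_sup_left (cjQ_mem x)))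
      exact (sup_le ((le_sup_left.trans le_sup_left) : autInducedBy ⊤ (PQ K) ≤ LamQ K ⊔ CZ K) hRL) hg
    rw [Subgroup.mem_sup_of_normal_right] at h2
    obtain ⟨l', hl', c, hc, hlc⟩ := h2
    refine ⟨l', hl', d, hd, δ, hδ, (eqv_iff h).1 ?_⟩
    have h5 : γ = l' * c * δ := by
      rw [hlc, mul_assoc, ← h1]
      group
    have h6 : (l' * δ)⁻¹ * γ = δ⁻¹ * c * δ⁻¹⁻¹ := by
      rw [h5]
      group
    rw [h6]
    exact hcn.conj_mem c hc δ⁻¹

end Cfsg.Agent.H675.P4
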